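import Mathlib
import Cfsg.Agent.Lib.Helper44.StdForms

set_option autoImplicit false

namespace Cfsg.Agent.Lib.Helper42.Sp8

open Matrix QuadraticMap Cfsg.Agent.Lib.Helper44

variable {F : Type*} [Field F] [Fintype F]

/-- AU0 -/
theorem aunip0 [CharP F 2] (t : F) :
    ∃ (X : Matrix ((Fin 0 ⊕ Fin 0) ⊕ Fin 2) ((Fin 0 ⊕ Fin 0) ⊕ Fin 2) F)
      (v : (Fin 0 ⊕ Fin 0) ⊕ Fin 2 → F),
      (∀ w, minusQF 0 F 1 t (X *ᵥ w) = minusQF 0 F 1 t w) ∧ Even (X - 1).rank ∧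
      ∀ j : ℕ, (X ^ j = 1 ∧ (∑ i ∈ Finset.range j, X ^ i) *ᵥ v = 0) ↔ 2 ∣ j := by
  refine ⟨1, Pi.single (Sum.inr 0) 1, ?_, ?_, ?_⟩
  · intro w
    rw [Matrix.one_mulVec]
  · rw [sub_self, Matrix.rank_zero]
    exact Even.zero
  · intro j
    simp only [one_pow, true_and, Finset.sum_const, Finset.card_range]
    rw [← CharP.cast_eq_zero_iff F 2 j]
    constructor
    · intro h
      rw [← Nat.cast_smul_eq_nsmul F, Matrix.smul_mulVec, Matrix.one_mulVec] at h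
      have h1 := congrFun h (Sum.inr 0)
      simpa using h1
    · intro h
      rw [← Nat.cast_smul_eq_nsmul F, h, zero_smul, Matrix.zero_mulVec]

end Cfsg.Agent.Lib.Helper42.Sp8
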