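import Mathlib

set_option autoImplicit false

namespace Cfsg.Agent.Lib.Helper42.Sp8

open Matrix

variable {F : Type*} [Field F] [Fintype F]

omit [Fintype F] in
theorem DBL_sum_mul {ι : Type} [Fintype ι] [DecidableEq ι] (X : Matrix ι ι F)
    (M : ℕ) (hX : X ^ M = 1) (c : ℕ) :
    ∑ i ∈ Finset.range (M * c), X ^ i = (c : F) • ∑ i ∈ Finset.range M, X ^ i := by
  induction c with
  | zero => simp
  | succ k ih =>
    rw [Nat.mul_succ, Finset.sum_range_add, ih]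
    have : ∀ x, X ^ (M * k + x) = X ^ x := by
      intro x
      rw [pow_add, pow_mul, hX, one_pow, one_mul]
    simp only [this]
    push_cast
    rw [add_smul, one_smul]

/-- DBL -/
theorem aff_order_double [CharP F 2] {ι : Type} [Fintype ι] [DecidableEq ι] (X : Matrix ι ι F)
    (M : ℕ) (hM : 0 < M) (hj : ∀ j : ℕ, X ^ j = 1 ↔ M ∣ j) (v : ι → F)
    (hv : (∑ i ∈ Finset.range M, X ^ i) *ᵥ v ≠ 0) (j : ℕ) :
    (X ^ j = 1 ∧ (∑ i ∈ Finset.range j, X ^ i) *ᵥ v = 0) ↔ 2 * M ∣ j := by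
  have hX : X ^ M = 1 := (hj M).2 dvd_rfl
  constructor
  · rintro ⟨h1, h2⟩
    obtain ⟨c, rfl⟩ := (hj j).1 h1
    rw [DBL_sum_mul X M hX c, Matrix.smul_mulVec] at h2
    have hc : (c : F) = 0 := (smul_eq_zero.1 h2).resolve_right hv
    obtain ⟨k, rfl⟩ := (CharP.cast_eq_zero_iff F 2 c).1 hc
    exact ⟨k, by ring⟩
  · rintro ⟨k, rfl⟩
    have e : 2 * M * k = M * (2 * k) := by ring
    refine ⟨(hj _).2 ⟨2 * k, e⟩, ?_⟩
    rw [e, DBL_sum_mul X M hX (2 * k)]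
    have : ((2 * k : ℕ) : F) = 0 := (CharP.cast_eq_zero_iff F 2 _).2 ⟨k, rfl⟩
    rw [this, zero_smul, Matrix.zero_mulVec]

end Cfsg.Agent.Lib.Helper42.Sp8
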