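import Mathlib
import Cfsg.Agent.Lib.Helper44.StdForms
import Cfsg.Agent.Lib.Helper42.Sp8.U1
import Cfsg.Agent.Lib.Helper42.Sp8.DBL

set_option autoImplicit false
set_option linter.unusedSectionVars false

namespace Cfsg.Agent.Lib.Helper42.Sp8

open Matrix QuadraticMap Cfsg.Agent.Lib.Helper44

variable {F : Type*} [Field F] [Fintype F]

theorem AU1_mulVec (t : F) (v : ((Fin 0 ⊕ Fin 0) ⊕ Fin 2) → F) :
    (LinearMap.toMatrixAlgEquiv' (U1_T t)) *ᵥ v = U1_T t v :=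
  LinearMap.toMatrix'_mulVec (U1_T t) v

theorem AU1_pow [CharP F 2] (t : F) (j : ℕ) :
    (LinearMap.toMatrixAlgEquiv' (U1_T t)) ^ j = 1 ↔ 2 ∣ j := by
  classical
  have : Fact (Nat.Prime 2) := ⟨Nat.prime_two⟩
  rw [← map_pow, map_eq_one_iff _ (LinearMap.toMatrixAlgEquiv' (R := F)).injective, ← orderOf_dvd_iff_pow_eq_one]
  have hord : orderOf (U1_T t) = 2 ^ (0 + 1) := by
    apply orderOf_eq_prime_pow
    · intro h
      have h1 := congrArg (fun L : (((Fin 0 ⊕ Fin 0) ⊕ Fin 2) → F) →ₗ[F] (((Fin 0 ⊕ Fin 0) ⊕ Fin 2) → F) => L (Pi.single (Sum.inr 1) 1) (Sum.inr 0)) h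
      norm_num [pow_succ, Module.End.mul_apply, U1_T_apply] at h1
    · apply LinearMap.ext
      intro v
      norm_num [pow_succ, Module.End.mul_apply, U1_sq0]
  rw [hord]
  norm_num

theorem AU1_eq_zero_of_rank {ι : Type} [Fintype ι] [DecidableEq ι] (M : Matrix ι ι F)
    (h : M.rank = 0) : M = 0 := by
  rw [Matrix.rank, Submodule.finrank_eq_zero, LinearMap.range_eq_bot] at h
  apply Matrix.ext_of_mulVec_single
  intro k
  have := congrArg (fun L : (ι → F) →ₗ[F] (ι → F) => L (Pi.single k 1)) h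
  rw [Matrix.zero_mulVec]
  exact this

theorem AU1_sub_one (t : F) :
    (LinearMap.toMatrixAlgEquiv' (U1_T t)) - 1 =
      Matrix.vecMulVec (Pi.single (Sum.inr 0) (1 : F)) (Pi.single (Sum.inr 1) (1 : F)) := by
  apply Matrix.ext_of_mulVec_single
  intro k
  rw [Matrix.sub_mulVec, AU1_mulVec, Matrix.one_mulVec, Matrix.vecMulVec_mulVec]
  funext l
  rcases k with (k | k) | k <;> rcases l with (l | l) | l <;> fin_cases k <;> fin_cases l <;>
    simp [U1_T_apply]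

/-- AU1 -/
theorem aunip1 [CharP F 2] (t : F) :
    ∃ (X : Matrix ((Fin 0 ⊕ Fin 0) ⊕ Fin 2) ((Fin 0 ⊕ Fin 0) ⊕ Fin 2) F)
      (v : (Fin 0 ⊕ Fin 0) ⊕ Fin 2 → F),
      (∀ w, minusQF 0 F 1 t (X *ᵥ w) = minusQF 0 F 1 t w) ∧ Odd (X - 1).rank ∧
      ∀ j : ℕ, (X ^ j = 1 ∧ (∑ i ∈ Finset.range j, X ^ i) *ᵥ v = 0) ↔ 4 ∣ j := by
  refine ⟨LinearMap.toMatrixAlgEquiv' (U1_T t), Pi.single (Sum.inr 1) 1, ?_, ?_, ?_⟩
  · intro w
    rw [AU1_mulVec, U1_inv]
  · have h1 : ((LinearMap.toMatrixAlgEquiv' (U1_T t)) - 1).rank ≤ 1 := by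
      rw [AU1_sub_one]; exact Matrix.rank_vecMulVec_le _ _
    have h2 : ((LinearMap.toMatrixAlgEquiv' (U1_T t)) - 1).rank ≠ 0 := by
      intro h
      have h := AU1_eq_zero_of_rank _ h
      have h3 := (AU1_pow t 1).1 (by rw [pow_one]; exact sub_eq_zero.1 h)
      norm_num at h3
    have h3 : ((LinearMap.toMatrixAlgEquiv' (U1_T t)) - 1).rank = 1 := by omega
    rw [h3]; exact odd_one
  · intro j
    have := aff_order_double (LinearMap.toMatrixAlgEquiv' (U1_T t)) 2 (by norm_num) (AU1_pow t)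
      (Pi.single (Sum.inr 1) 1) ?_ j
    · simpa using this
    · intro h
      rw [Finset.sum_range_succ, Finset.sum_range_one, pow_zero, pow_one, Matrix.add_mulVec,
        Matrix.one_mulVec, AU1_mulVec] at h
      have h1 := congrFun h (Sum.inr 0)
      simp [U1_T_apply] at h1

end Cfsg.Agent.Lib.Helper42.Sp8
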