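import Mathlib

set_option autoImplicit false

namespace Cfsg.Agent.Lib.Helper42.Sp8

open Matrix

variable {F : Type*} [Field F] [Fintype F]

omit [Fintype F] in
theorem GEO_poly [CharP F 2] (c : ℕ) :
    ∑ i ∈ Finset.range (2 ^ c), (Polynomial.X : Polynomial F) ^ i
      = (Polynomial.X - 1) ^ (2 ^ c - 1) := by
  have h1 : (∑ i ∈ Finset.range (2 ^ c), (Polynomial.X : Polynomial F) ^ i) * (Polynomial.X - 1)
      = Polynomial.X ^ (2 ^ c) - 1 := geom_sum_mul _ _
  have h2 : ((Polynomial.X : Polynomial F) - 1) ^ (2 ^ c) = Polynomial.X ^ (2 ^ c) - 1 := by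
    rw [sub_pow_char_pow, one_pow]
  have h3 : ((Polynomial.X : Polynomial F) - 1) ^ (2 ^ c)
      = (Polynomial.X - 1) ^ (2 ^ c - 1) * (Polynomial.X - 1) := by
    rw [← pow_succ, Nat.sub_add_cancel (Nat.one_le_two_pow)]
  have h4 : ((Polynomial.X : Polynomial F) - 1) ≠ 0 := by
    have := Polynomial.X_sub_C_ne_zero (1 : F)
    rwa [Polynomial.C_1] at this
  exact mul_right_cancel₀ h4 (by rw [h1, ← h2, h3])

/-- GEO -/
theorem geo_sum [CharP F 2] {ι : Type} [Fintype ι] [DecidableEq ι] (X : Matrix ι ι F) (c : ℕ) :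
    ∑ i ∈ Finset.range (2 ^ c), X ^ i = (X - 1) ^ (2 ^ c - 1) := by
  have := congrArg (Polynomial.aeval X) (GEO_poly (F := F) c)
  simpa using this

end Cfsg.Agent.Lib.Helper42.Sp8
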