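import Mathlib

set_option autoImplicit false

namespace Cfsg.Agent.Lib.Helper42.Sp8

open Matrix

variable {F : Type*} [Field F] [Fintype F]

omit [Fintype F] in
theorem NIL_end {V : Type*} [AddCommGroup V] [Module F V] [FiniteDimensional F V]
    (f : Module.End F V) (w : ℕ) (h : f ^ w = 0) :
    f ^ Module.finrank F V = 0 ∧ (f ^ (Module.finrank F V - 1) ≠ 0 →
      Module.finrank F (LinearMap.range f) + 1 = Module.finrank F V) := by
  have h1 : f ^ Module.finrank F V = 0 := by
    have := Module.End.ker_pow_le_ker_pow_finrank f w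
    rw [h, LinearMap.ker_zero] at this
    exact LinearMap.ker_eq_top.1 (top_le_iff.1 this)
  refine ⟨h1, fun hne => ?_⟩
  set k := Module.finrank F V with hk
  have hk0 : 0 < k := by
    rcases Nat.eq_zero_or_pos k with h0 | h0
    · exfalso
      apply hne
      rw [h0] at h1 ⊢
      exact h1
    · exact h0
  have hle : ∀ j, LinearMap.ker (f ^ j) ≤ LinearMap.ker (f ^ (j + 1)) := by
    intro j
    rw [pow_succ']
    exact LinearMap.ker_le_ker_comp _ _
  have hlt : ∀ j, j < k → LinearMap.ker (f ^ j) < LinearMap.ker (f ^ (j + 1)) := by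
    intro j hj
    refine lt_of_le_of_ne (hle j) ?_
    intro heq
    have h2 := Module.End.ker_pow_constant heq (k - j)
    rw [Nat.add_sub_cancel' hj.le, h1, LinearMap.ker_zero] at h2
    have h3 : f ^ j = 0 := LinearMap.ker_eq_top.1 h2
    apply hne
    have : k - 1 = j + (k - 1 - j) := by omega
    rw [this, pow_add, h3, zero_mul]
  have hd : ∀ j, j + 1 ≤ k → Module.finrank F (LinearMap.ker (f ^ 1)) + j
      ≤ Module.finrank F (LinearMap.ker (f ^ (j + 1))) := by
    intro j
    induction j with
    | zero => intro _; simp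
    | succ j ih =>
      intro hj
      have h4 := ih (by omega)
      have h5 := Submodule.finrank_lt_finrank_of_lt (hlt (j + 1) (by omega))
      omega
  have h6 := hd (k - 1) (by omega)
  rw [Nat.sub_add_cancel hk0, h1, LinearMap.ker_zero, finrank_top, ← hk, pow_one] at h6
  have h7 := Submodule.finrank_lt_finrank_of_lt (hlt 0 hk0)
  rw [zero_add, pow_one] at h7
  have h8 := LinearMap.finrank_range_add_finrank_ker f
  rw [← hk] at h8
  omega

/-- NIL -/
theorem nil_rank {ι : Type} [Fintype ι] [DecidableEq ι] (N : Matrix ι ι F) (w : ℕ)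
    (h : N ^ w = 0) :
    N ^ Fintype.card ι = 0 ∧ (N ^ (Fintype.card ι - 1) ≠ 0 → N.rank + 1 = Fintype.card ι) := by
  have h0 : (Matrix.toLin' N) ^ w = 0 := by rw [← Matrix.toLin'_pow, h, map_zero]
  obtain ⟨h1, h2⟩ := NIL_end (Matrix.toLin' N) w h0
  rw [Module.finrank_fintype_fun_eq_card] at h1 h2
  constructor
  · rw [← Matrix.toLin'_pow] at h1
    exact (Matrix.toLin' (R := F) (n := ι) (m := ι)).injective (by rw [h1, map_zero])
  · intro hne
    have := h2 (by
      rw [← Matrix.toLin'_pow]
      intro h3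
      exact hne ((Matrix.toLin' (R := F) (n := ι) (m := ι)).injective (by rw [h3, map_zero])))
    rw [Matrix.rank, ← Matrix.toLin'_apply']
    exact this

end Cfsg.Agent.Lib.Helper42.Sp8
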