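import Mathlib
import Cfsg.Agent.Lib.Helper44.StdForms
import Cfsg.Agent.Lib.Helper42.Sp8.U2
import Cfsg.Agent.Lib.Helper42.Sp8.DBL
import Cfsg.Agent.Lib.Helper42.Sp8.NIL
import Cfsg.Agent.Lib.Helper42.Sp8.GEO

set_option autoImplicit false
set_option linter.unusedSectionVars false

namespace Cfsg.Agent.Lib.Helper42.Sp8

open Matrix QuadraticMap Cfsg.Agent.Lib.Helper44

variable {F : Type*} [Field F] [Fintype F]

theorem AU2_mulVec (t : F) (v : ((Fin 1 ⊕ Fin 1) ⊕ Fin 2) → F) :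
    (LinearMap.toMatrixAlgEquiv' (U2_T t)) *ᵥ v = U2_T t v :=
  LinearMap.toMatrix'_mulVec (U2_T t) v

theorem AU2_pow [CharP F 2] (t : F) (j : ℕ) :
    (LinearMap.toMatrixAlgEquiv' (U2_T t)) ^ j = 1 ↔ 4 ∣ j := by
  classical
  have : Fact (Nat.Prime 2) := ⟨Nat.prime_two⟩
  rw [← map_pow, map_eq_one_iff _ (LinearMap.toMatrixAlgEquiv' (R := F)).injective, ← orderOf_dvd_iff_pow_eq_one]
  have hord : orderOf (U2_T t) = 2 ^ (1 + 1) := by
    apply orderOf_eq_prime_pow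
    · intro h
      have h1 := congrArg (fun L : (((Fin 1 ⊕ Fin 1) ⊕ Fin 2) → F) →ₗ[F] (((Fin 1 ⊕ Fin 1) ⊕ Fin 2) → F) => L (Pi.single (Sum.inl (Sum.inl 0)) 1) (Sum.inr 0)) h
      norm_num [pow_succ, Module.End.mul_apply, U2_sq0, U2_P1] at h1
    · apply LinearMap.ext
      intro v
      norm_num [pow_succ, Module.End.mul_apply, U2_sq0, U2_sq1]
  rw [hord]
  norm_num

theorem AU2_sum_ne [CharP F 2] (t : F) :
    (∑ i ∈ Finset.range 4, (LinearMap.toMatrixAlgEquiv' (U2_T t)) ^ i) *ᵥ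
      (Pi.single (Sum.inl (Sum.inl 0)) 1 : ((Fin 1 ⊕ Fin 1) ⊕ Fin 2) → F) ≠ 0 := by
  have h2 : (2 : F) = 0 := CharTwo.two_eq_zero
  intro h
  have h1 := congrFun h (Sum.inl (Sum.inr 0))
  simp only [Finset.sum_range_succ, Finset.sum_range_zero, zero_add, pow_succ, pow_zero, one_mul,
    Matrix.add_mulVec, Matrix.one_mulVec, ← Matrix.mulVec_mulVec, AU2_mulVec, U2_T_apply,
    Pi.add_apply, Sum.elim_inl, Sum.elim_inr, Matrix.cons_val_zero, Matrix.cons_val_one,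
    Fin.isValue, Matrix.cons_val_fin_one, Pi.zero_apply] at h1
  simp at h1
  have h3 : (1 : F) = 0 := by linear_combination h1 - (3 * t + 2) * h2
  exact one_ne_zero h3

/-- AU2 -/
theorem aunip2 [CharP F 2] (t : F) :
    ∃ (X : Matrix ((Fin 1 ⊕ Fin 1) ⊕ Fin 2) ((Fin 1 ⊕ Fin 1) ⊕ Fin 2) F)
      (v : (Fin 1 ⊕ Fin 1) ⊕ Fin 2 → F),
      (∀ w, minusQF 1 F 1 t (X *ᵥ w) = minusQF 1 F 1 t w) ∧ Odd (X - 1).rank ∧
      ∀ j : ℕ, (X ^ j = 1 ∧ (∑ i ∈ Finset.range j, X ^ i) *ᵥ v = 0) ↔ 8 ∣ j := by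
  refine ⟨LinearMap.toMatrixAlgEquiv' (U2_T t), Pi.single (Sum.inl (Sum.inl 0)) 1, ?_, ?_, ?_⟩
  · intro w
    rw [AU2_mulVec, U2_inv]
  · set X := LinearMap.toMatrixAlgEquiv' (U2_T t) with hX
    have hg : ∑ i ∈ Finset.range 4, X ^ i = (X - 1) ^ 3 := geo_sum X 2
    have h4 : (X - 1) ^ 4 = 0 := by
      rw [pow_succ, ← hg, geom_sum_mul, (AU2_pow t 4).2 (dvd_refl 4), sub_self]
    have h3 : (X - 1) ^ 3 ≠ 0 := by
      intro h
      apply AU2_sum_ne t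
      rw [← hX, hg, h, Matrix.zero_mulVec]
    have hc : Fintype.card ((Fin 1 ⊕ Fin 1) ⊕ Fin 2) = 4 := by simp
    have := (nil_rank (X - 1) 4 h4).2
    rw [hc] at this
    have h5 := this h3
    have h6 : (X - 1).rank = 3 := by omega
    rw [h6]
    decide
  · intro j
    have := aff_order_double (LinearMap.toMatrixAlgEquiv' (U2_T t)) 4 (by norm_num) (AU2_pow t)
      (Pi.single (Sum.inl (Sum.inl 0)) 1) (AU2_sum_ne t) j
    simpa using this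

end Cfsg.Agent.Lib.Helper42.Sp8
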