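import Mathlib

set_option autoImplicit false

namespace Cfsg.Agent.Lib.Helper42.Sp8

open Matrix

/-- the action of a matrix group on the (multiplicative copy of the) natural module -/
noncomputable def affHom {F : Type*} [Field F] {ι : Type} [Fintype ι] [DecidableEq ι]
    {L : Type*} [Group L] (ρ : L →* GL ι F) : L →* MulAut (Multiplicative (ι → F)) :=
  (MulAutMultiplicative (ι → F)).symm.toMonoidHom.comp
    ((DistribMulAction.toAddAut (LinearMap.GeneralLinearGroup F (ι → F)) (ι → F)).comp
      (Matrix.GeneralLinearGroup.toLin.toMonoidHom.comp ρ))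

end Cfsg.Agent.Lib.Helper42.Sp8
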