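import Mathlib

set_option autoImplicit false

namespace Cfsg.Agent.Lib.Helper42.Sp8

open Matrix QuadraticMap

variable {F : Type*} [Field F] [Fintype F]

theorem IDEM_pow {M : Type*} [Monoid M] [Finite M] (x : M) :
    ∃ m : ℕ, 0 < m ∧ x ^ m * x ^ m = x ^ m := by
  obtain ⟨i, p, hp, hip⟩ : ∃ i p : ℕ, 0 < p ∧ x ^ (i + p) = x ^ i := by
    obtain ⟨i, j, hij, h⟩ := Finite.exists_ne_map_eq_of_infinite (fun i : ℕ => x ^ i)
    rcases lt_or_gt_of_ne hij with h1 | h1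
    · exact ⟨i, j - i, by omega, by rw [Nat.add_sub_cancel' h1.le]; exact h.symm⟩
    · exact ⟨j, i - j, by omega, by rw [Nat.add_sub_cancel' h1.le]; exact h⟩
  have hstep : ∀ a, i ≤ a → x ^ (a + p) = x ^ a := by
    intro a ha
    obtain ⟨b, rfl⟩ := Nat.exists_eq_add_of_le ha
    rw [show i + b + p = (i + p) + b by omega, pow_add, hip, ← pow_add]
  have hk : ∀ k a, i ≤ a → x ^ (a + k * p) = x ^ a := by
    intro k
    induction k with
    | zero => intro a _; simp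
    | succ k ih =>
      intro a ha
      rw [show a + (k + 1) * p = (a + k * p) + p by ring, hstep _ (by omega), ih a ha]
  have hm : i + 1 ≤ (i + 1) * p := Nat.le_mul_of_pos_right _ hp
  refine ⟨(i + 1) * p, by omega, ?_⟩
  rw [← pow_add]
  exact hk (i + 1) _ (by omega)

omit [Fintype F] in
theorem IDEM_adj {ι : Type} [Fintype ι] [DecidableEq ι] (Q : QuadraticForm F (ι → F))
    (M M' : Matrix ι ι F) (h : ∀ x y, polar Q (M *ᵥ x) y = polar Q x (M' *ᵥ y)) (k : ℕ) :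
    ∀ x y, polar Q ((M ^ k) *ᵥ x) y = polar Q x ((M' ^ k) *ᵥ y) := by
  induction k with
  | zero => intro x y; simp
  | succ k ih =>
    intro x y
    rw [pow_succ', ← Matrix.mulVec_mulVec, h, ih, Matrix.mulVec_mulVec, ← pow_succ]

/-- IDEM -/
theorem exists_idem [CharP F 2] {ι : Type} [Fintype ι] [DecidableEq ι]
    (Q : QuadraticForm F (ι → F)) (A : Matrix ι ι F) (hA : ∀ v, Q (A *ᵥ v) = Q v) (n : ℕ)
    (hn : 0 < n) (hAn : A ^ n = 1) :
    ∃ w : ℕ, 0 < w ∧ ((A - 1) ^ w) * ((A - 1) ^ w) = (A - 1) ^ w ∧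
      ∀ x y, polar Q (((A - 1) ^ w) *ᵥ x) y = polar Q x (((A - 1) ^ w) *ᵥ y) := by
  obtain ⟨m, hm, hidem⟩ := IDEM_pow (A - 1)
  have hpA : ∀ x y, polar Q (A *ᵥ x) (A *ᵥ y) = polar Q x y := by
    intro x y
    unfold QuadraticMap.polar
    rw [← Matrix.mulVec_add, hA, hA, hA]
  have hAA' : A * A ^ (n - 1) = 1 := by
    rw [← pow_succ', Nat.sub_add_cancel hn, hAn]
  have hadjA : ∀ x y, polar Q (A *ᵥ x) y = polar Q x ((A ^ (n - 1)) *ᵥ y) := by
    intro x y
    rw [← hpA x, Matrix.mulVec_mulVec, hAA', Matrix.one_mulVec]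
  have h2 : ∀ X : Matrix ι ι F, -X = X := by
    intro X
    ext i j
    exact CharTwo.neg_eq _
  have hB' : A ^ (n - 1) - 1 = A ^ (n - 1) * (A - 1) := by
    have hA'A : A ^ (n - 1) * A = 1 := by
      rw [← pow_succ, Nat.sub_add_cancel hn, hAn]
    rw [mul_sub, hA'A, mul_one, ← neg_sub, h2]
  have hadjB : ∀ x y, polar Q ((A - 1) *ᵥ x) y = polar Q x ((A ^ (n - 1) * (A - 1)) *ᵥ y) := by
    intro x y
    rw [← hB', Matrix.sub_mulVec, Matrix.sub_mulVec, Matrix.one_mulVec, Matrix.one_mulVec,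
      polar_sub_left, polar_sub_right, hadjA]
  have hcomm : Commute (A ^ (n - 1)) (A - 1) :=
    ((Commute.refl A).pow_left _).sub_right (Commute.one_right _)
  have hpw : (A - 1) ^ (m * n) = (A - 1) ^ m := by
    rw [pow_mul]
    have hI : IsIdempotentElem ((A - 1) ^ m) := hidem
    obtain ⟨n', rfl⟩ : ∃ n', n = n' + 1 := ⟨n - 1, by omega⟩
    exact hI.pow_succ_eq n'
  refine ⟨m * n, Nat.mul_pos hm hn, by rw [hpw]; exact hidem, ?_⟩
  intro x y
  rw [IDEM_adj Q _ _ hadjB (m * n) x y, hcomm.mul_pow]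
  have : (A ^ (n - 1)) ^ (m * n) = 1 := by
    rw [← pow_mul, show (n - 1) * (m * n) = n * ((n - 1) * m) by ring, pow_mul, hAn, one_pow]
  rw [this, one_mul]

end Cfsg.Agent.Lib.Helper42.Sp8
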