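import Mathlib
import Cfsg.Agent.Lib.Helper42.Sp8.Aff

set_option autoImplicit false

namespace Cfsg.Agent.Lib.Helper42.Sp8

open Matrix

variable {F : Type*} [Field F] [Fintype F]

omit [Fintype F] in
theorem SD_affHom_apply {ι : Type} [Fintype ι] [DecidableEq ι] {L : Type*} [Group L]
    (ρ : L →* GL ι F) (h : L) (v : ι → F) :
    affHom ρ h (Multiplicative.ofAdd v) =
      Multiplicative.ofAdd (((ρ h : GL ι F) : Matrix ι ι F) *ᵥ v) := rfl

omit [Fintype F] in
theorem SD_pow {ι : Type} [Fintype ι] [DecidableEq ι] {L : Type*} [Group L]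
    (ρ : L →* GL ι F) (h : L) (v : ι → F) (j : ℕ) :
    (⟨Multiplicative.ofAdd v, h⟩ : Multiplicative (ι → F) ⋊[affHom ρ] L) ^ j =
      ⟨Multiplicative.ofAdd ((∑ i ∈ Finset.range j, ((ρ h : GL ι F) : Matrix ι ι F) ^ i) *ᵥ v),
        h ^ j⟩ := by
  induction j with
  | zero =>
    simp
  | succ k ih =>
    rw [pow_succ', ih]
    apply SemidirectProduct.ext
    · rw [SemidirectProduct.mul_left]
      simp only [SD_affHom_apply]
      rw [← ofAdd_add, Finset.sum_range_succ', Matrix.add_mulVec, pow_zero, Matrix.one_mulVec,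
        Matrix.mulVec_mulVec, Finset.mul_sum, add_comm]
      simp only [pow_succ']
    · rw [SemidirectProduct.mul_right, pow_succ']

/-- SD -/
theorem aff_pow_eq_one_iff {ι : Type} [Fintype ι] [DecidableEq ι] {L : Type*} [Group L]
    (ρ : L →* GL ι F) (h : L) (v : ι → F) (j : ℕ) :
    (⟨Multiplicative.ofAdd v, h⟩ : Multiplicative (ι → F) ⋊[affHom ρ] L) ^ j = 1 ↔
      (h ^ j = 1 ∧ (∑ i ∈ Finset.range j, ((ρ h : GL ι F) : Matrix ι ι F) ^ i) *ᵥ v = 0) := by
  rw [SD_pow, SemidirectProduct.ext_iff]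
  simp only [SemidirectProduct.one_left, SemidirectProduct.one_right]
  constructor
  · rintro ⟨h1, h2⟩
    exact ⟨h2, by simpa using h1⟩
  · rintro ⟨h1, h2⟩
    exact ⟨by simpa using h2, h1⟩

end Cfsg.Agent.Lib.Helper42.Sp8
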