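import Mathlib
import Cfsg.Agent.Lib.Helper42.Sp8.Aff

set_option autoImplicit false

namespace Cfsg.Agent.Lib.Helper42.Sp8

open Matrix

variable {F : Type*} [Field F] [Fintype F]

/-- SDK -/
theorem aff_exists_normal {ι : Type} [Fintype ι] [DecidableEq ι] [Nonempty ι] {L : Type*}
    [Group L] (ρ : L →* GL ι F) :
    ∃ K : Subgroup (Multiplicative (ι → F) ⋊[affHom ρ] L), K.Normal ∧ K ≠ ⊥ ∧
      Group.IsSolvable K := by
  refine ⟨(SemidirectProduct.inl : Multiplicative (ι → F) →* _).range, ?_, ?_, ?_⟩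
  · rw [SemidirectProduct.range_inl_eq_ker_rightHom]
    infer_instance
  · intro h
    have h1 : (SemidirectProduct.inl (Multiplicative.ofAdd (fun _ : ι => (1 : F))) :
        Multiplicative (ι → F) ⋊[affHom ρ] L) ∈
        (SemidirectProduct.inl : Multiplicative (ι → F) →* _).range := ⟨_, rfl⟩
    rw [h, Subgroup.mem_bot] at h1
    have h2 := SemidirectProduct.inl_injective (h1.trans (map_one _).symm)
    have h3 : (fun _ : ι => (1 : F)) = 0 := h2
    obtain ⟨i⟩ := ‹Nonempty ι›
    exact one_ne_zero (congrFun h3 i)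
  · exact Group.isSolvable_of_surjective
      (f := (SemidirectProduct.inl : Multiplicative (ι → F) →* _).rangeRestrict)
      (MonoidHom.rangeRestrict_surjective _)

end Cfsg.Agent.Lib.Helper42.Sp8
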